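import Cfsg.Agent.H234.HT.LemB
import Mathlib.NumberTheory.Multiplicity
import Mathlib.NumberTheory.Padics.PadicVal.Basic
import Mathlib.GroupTheory.SpecificGroups.Cyclic
import Mathlib.RingTheory.ZMod.UnitsCyclic
import Mathlib

/-!
# S4933, rows with cyclic Sylow subgroups, numbers (helper985)

* `mulAut_apply` : automorphisms of a cyclic group are powers;
* `unit_order_p` : the elements of order `p` of `(ℤ/p^m)ˣ`;
* `test` : the sum of `ζ ^ w` over the `w` of order prime to `p` is moved, modulo `p`, by them.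
-/

set_option autoImplicit false

namespace Cfsg.Agent.H985.HT

theorem addAut_symm_apply (n : ℕ) (k : (ZMod n)ˣ) (a : ZMod n) :
    (((AddEquiv.toMultiplicative (ZMod.AddAutEquivUnits n))).symm k).toAdd a = k * a := rfl

/-- an automorphism of a cyclic group is a power map -/
theorem mulAut_apply (G : Type*) [Group G] [Finite G] [h : IsCyclic G] (α : MulAut G) (z : G) :
    α z = z ^ ((IsCyclic.mulAutMulEquiv G α : (ZMod (Nat.card G))ˣ) : ZMod (Nat.card G)).val := by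
  have : NeZero (Nat.card G) := ⟨Nat.card_pos.ne'⟩
  obtain ⟨k, rfl⟩ := (IsCyclic.mulAutMulEquiv G).symm.surjective α
  rw [MulEquiv.apply_symm_apply]
  obtain ⟨a, rfl⟩ := (zmodCyclicMulEquiv h).surjective z
  rw [← map_pow]
  simp
  rw [← map_pow]
  congr 1
  apply Multiplicative.toAdd.injective
  rw [toAdd_ofAdd, toAdd_pow]
  rw [nsmul_eq_mul, ZMod.natCast_zmod_val]
  exact addAut_symm_apply _ k a.toAdd

variable {p : ℕ} [hp : Fact p.Prime]

/-- elements of order `p` of `(ℤ/p^m)ˣ` -/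
theorem unit_order_p (hp2 : p ≠ 2) {N m : ℕ} (hN : N = p ^ m) {k : (ZMod N)ˣ} (hk : k ^ p = 1) (hk1 : k ≠ 1) :
    ∃ n u : ℕ, 1 ≤ n ∧ m = n + 1 ∧ ¬ p ∣ u ∧ (k : ZMod N).val = 1 + p ^ n * u := by
  subst hN
  have hpos : 0 < p ^ m := pow_pos hp.out.pos _
  have : NeZero (p ^ m) := ⟨hpos.ne'⟩
  have hodd : Odd p := hp.out.odd_of_ne_two hp2
  set K := (k : ZMod (p ^ m)).val with hK
  have hKlt : K < p ^ m := ZMod.val_lt _
  have hKk : ((K : ℕ) : ZMod (p ^ m)) = k := ZMod.natCast_zmod_val _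
  have hm : m ≠ 0 := by
    rintro rfl
    apply hk1
    ext
    have : Subsingleton (ZMod (p ^ 0)) := by
      rw [pow_zero]
      infer_instance
    exact Subsingleton.elim _ _
  have hpm : 1 < p ^ m := Nat.one_lt_pow hm hp.out.one_lt
  have hK1 : K ≠ 1 := by
    intro h
    apply hk1
    ext
    rw [← hKk, h, Nat.cast_one, Units.val_one]
  have hcop : K.Coprime (p ^ m) := ZMod.val_coe_unit_coprime k
  have hpK : ¬ p ∣ K := by
    intro h
    have h1 : p ∣ Nat.gcd K (p ^ m) := Nat.dvd_gcd h (dvd_pow_self p hm)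
    rw [hcop] at h1
    exact hp.out.one_lt.ne' (Nat.dvd_one.1 h1)
  have hK0 : K ≠ 0 := fun h => hpK (h ▸ dvd_zero p)
  have hK2 : 1 < K := by omega
  have hKp : p ^ m ∣ K ^ p - 1 := by
    have h1 : ((K ^ p : ℕ) : ZMod (p ^ m)) = ((1 : ℕ) : ZMod (p ^ m)) := by
      rw [Nat.cast_pow, hKk, ← Units.val_pow_eq_pow_val, hk, Units.val_one, Nat.cast_one]
    rw [ZMod.natCast_eq_natCast_iff] at h1
    exact (Nat.modEq_iff_dvd' (Nat.one_le_pow _ _ (by omega))).1 h1.symm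
  have hX1 : p ∣ K - 1 := by
    have h3 : p ∣ K ^ p - 1 := (dvd_pow_self p hm).trans hKp
    have h4 : ((K : ℕ) : ZMod p) = 1 := by
      have h5 : ((K ^ p - 1 : ℕ) : ZMod p) = 0 := (ZMod.natCast_eq_zero_iff _ _).2 h3
      rw [Nat.cast_sub (Nat.one_le_pow _ _ (by omega)), Nat.cast_pow, ZMod.pow_card, Nat.cast_one, sub_eq_zero] at h5
      exact h5
    rw [← ZMod.natCast_eq_zero_iff, Nat.cast_sub (by omega), h4, Nat.cast_one, sub_self]
  have hv3 := padicValNat.pow_sub_pow hodd hK2 hX1 hpK hp.out.ne_zero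
  rw [one_pow, padicValNat.self hp.out.one_lt] at hv3
  have hne : K ^ p - 1 ≠ 0 := by
    have h1 : 1 < K ^ p := Nat.one_lt_pow hp.out.ne_zero hK2
    omega
  have h5 : m ≤ padicValNat p (K ^ p - 1) := (padicValNat_dvd_iff_le hne).1 hKp
  have hXne : K - 1 ≠ 0 := by omega
  have h6 : ¬ m ≤ padicValNat p (K - 1) := by
    intro h
    have h7 := (padicValNat_dvd_iff_le hXne).2 h
    have h8 := Nat.le_of_dvd (by omega) h7
    omega
  have h7 : 1 ≤ padicValNat p (K - 1) := one_le_padicValNat_of_dvd hXne hX1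
  have h8 : padicValNat p (K - 1) = m - 1 := by omega
  obtain ⟨u, hu⟩ : p ^ (m - 1) ∣ K - 1 := (padicValNat_dvd_iff_le hXne).2 h8.ge
  refine ⟨m - 1, u, by omega, by omega, fun h => ?_, by omega⟩
  obtain ⟨v, rfl⟩ := h
  have h9 : p ^ (m - 1 + 1) ∣ K - 1 := ⟨v, by rw [hu]; ring⟩
  have h10 := (padicValNat_dvd_iff_le hXne).1 h9
  omega

/-- the elements congruent to `1` -/
theorem unit_pPrime_eq_one {n : ℕ} (hn : 1 ≤ n) {r : ℕ} (hr : ¬ p ∣ r) {N : ℕ} (hN : N = p ^ (n + 1)) {w : (ZMod N)ˣ}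
    (hw : w ^ r = 1) (h : (w : ZMod N).val % p ^ n = 1 % p ^ n) : w = 1 := by
  subst hN
  have hpos : 0 < p ^ (n + 1) := pow_pos hp.out.pos _
  have : NeZero (p ^ (n + 1)) := ⟨hpos.ne'⟩
  have hn2 : 1 < p ^ n := Nat.one_lt_pow (by omega) hp.out.one_lt
  set K := (w : ZMod (p ^ (n + 1))).val with hK
  have hKk : ((K : ℕ) : ZMod (p ^ (n + 1))) = w := ZMod.natCast_zmod_val _
  have h1 : (p : ℤ) ∣ (K : ℤ) - (1 : ℤ) := by
    have h2 : (K : ℤ) ≡ 1 [ZMOD (p ^ n : ℕ)] := by exact_mod_cast (Int.natCast_modEq_iff.2 (show K ≡ 1 [MOD p ^ n] from h))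
    have h3 : ((p ^ n : ℕ) : ℤ) ∣ (K : ℤ) - 1 := h2.symm.dvd
    exact (Int.natCast_dvd_natCast.2 (dvd_pow_self p (by omega))).trans h3
  have h2 := dvd_sub_pow_of_dvd_sub h1 n
  rw [one_pow] at h2
  have h3 : w ^ p ^ n = 1 := by
    ext
    rw [Units.val_pow_eq_pow_val, Units.val_one, ← hKk]
    have h4 := (ZMod.intCast_zmod_eq_zero_iff_dvd ((K : ℤ) ^ p ^ n - 1) (p ^ (n + 1))).2 (by exact_mod_cast h2)
    push_cast at h4
    rw [sub_eq_zero] at h4
    exact_mod_cast h4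
  have h4 := orderOf_dvd_of_pow_eq_one h3
  have h5 := orderOf_dvd_of_pow_eq_one hw
  have h6 : Nat.Coprime (p ^ n) r := Nat.Coprime.pow_left _ ((Nat.Prime.coprime_iff_not_dvd hp.out).2 hr)
  exact orderOf_eq_one_iff.1 (Nat.eq_one_of_dvd_coprimes h6 h4 h5)

open Finset in
open scoped Classical in
/-- **the test** -/
theorem test (hp2 : p ≠ 2) {N m : ℕ} (hN : N = p ^ m) [NeZero N] {k : (ZMod N)ˣ} (hk : k ^ p = 1) (hk1 : k ≠ 1) {r : ℕ}
    (hr : ¬ p ∣ r) {ζ : ℂ} (hζ : IsPrimitiveRoot ζ N) {z : ℂ} (hz : IsIntegral ℤ z)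
    (h : ∑ w ∈ (univ : Finset (ZMod N)ˣ).filter (fun w => w ^ r = 1), ζ ^ (w : ZMod N).val -
      ∑ w ∈ (univ : Finset (ZMod N)ˣ).filter (fun w => w ^ r = 1), ζ ^ ((k : ZMod N).val * (w : ZMod N).val) = (p : ℂ) * z) :
    False := by
  obtain ⟨n, u, hn, hm, hu, hK⟩ := unit_order_p hp2 hN hk hk1
  rw [hm] at hN
  rw [hK] at h
  have h1 := H234.HT.count_dvd (hN ▸ hζ) hn hu ((univ : Finset (ZMod N)ˣ).filter (fun w => w ^ r = 1))
    (fun w => (w : ZMod N).val) hz h hp2 (r := 1) (fun h => hp.out.one_lt.ne' (Nat.dvd_one.1 h))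
  have h2 : (((univ : Finset (ZMod N)ˣ).filter (fun w => w ^ r = 1)).filter
      fun w : (ZMod N)ˣ => (w : ZMod N).val % p ^ n = 1 % p ^ n) = {1} := by
    ext w
    rw [mem_filter, mem_filter, mem_singleton]
    constructor
    · rintro ⟨⟨-, h3⟩, h4⟩
      exact unit_pPrime_eq_one hn hr hN h3 h4
    · rintro rfl
      refine ⟨⟨mem_univ _, one_pow _⟩, ?_⟩
      have h5 : 1 < N := by
        rw [hN]
        exact Nat.one_lt_pow (by omega) hp.out.one_lt
      have : Fact (1 < N) := ⟨h5⟩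
      rw [Units.val_one, ZMod.val_one]
  rw [h2, card_singleton] at h1
  exact hp.out.one_lt.ne' (Nat.dvd_one.1 h1)

end Cfsg.Agent.H985.HT
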