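import Cfsg.Agent.H985.HT.CycNum
import Cfsg.Agent.Lib.SylowNormalInf
import Mathlib

/-!
# S4933, rows with cyclic Sylow subgroups, the normal `p`-complement of the outer part (helper985)

`A` finite, `N` normal, `P` a Sylow `p`-subgroup of `A`, `Z = P ⊓ N` cyclic of order `n`.

* `kap` : the action of the normalizer of `Z` on `Z`, with values in `(ℤ/n)ˣ`;
* `exists_Phi` : `kap ^ r`, `r` the `p'`-part of `|(ℤ/n)ˣ|`, extends to `A`, trivially on `N`.
-/

set_option autoImplicit false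

set_option linter.unusedSectionVars false

open Subgroup
open scoped Pointwise

namespace Cfsg.Agent.H985.HT

universe u

section kap

variable {A : Type u} [Group A] [Finite A] (Z : Subgroup A) [hZ : IsCyclic Z]

/-- the action of the normalizer -/
noncomputable def kap : ↥(normalizer (Z : Set A)) →* (ZMod (Nat.card Z))ˣ :=
  (IsCyclic.mulAutMulEquiv Z).toMonoidHom.comp Z.normalizerMonoidHom

theorem kap_spec (g : ↥(normalizer (Z : Set A))) {x : A} (hx : x ∈ Z) :
    (g : A) * x * (g : A)⁻¹ = x ^ ((kap Z g : (ZMod (Nat.card Z))ˣ) : ZMod (Nat.card Z)).val := by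
  have h1 := mulAut_apply Z (Z.normalizerMonoidHom g) ⟨x, hx⟩
  have h2 := congrArg (Subtype.val) h1
  exact h2

theorem kap_eq_one_iff (g : ↥(normalizer (Z : Set A))) : kap Z g = 1 ↔ ∀ x ∈ Z, (g : A) * x = x * (g : A) := by
  have h1 : kap Z g = 1 ↔ Z.normalizerMonoidHom g = 1 := by
    unfold kap
    rw [MonoidHom.comp_apply]
    exact (IsCyclic.mulAutMulEquiv Z).map_eq_one_iff
  rw [h1]
  constructor
  · intro h x hx
    have h2 := congrArg (fun α : MulAut Z => ((α ⟨x, hx⟩ : Z) : A)) h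
    have h3 : (g : A) * x * (g : A)⁻¹ = x := h2
    exact mul_inv_eq_iff_eq_mul.1 h3
  · intro h
    ext x
    have h3 : (g : A) * x * (g : A)⁻¹ = x := mul_inv_eq_iff_eq_mul.2 (h x x.2)
    exact h3

end kap

section Phi

variable {A : Type u} [Group A] [Finite A] {p : ℕ} [hp : Fact p.Prime] (P : Sylow p A) (N : Subgroup A) [hN : N.Normal]
  (Z : Subgroup A) [hZ : IsCyclic Z] (hZe : Z = (P : Subgroup A) ⊓ N)

include hZe in
theorem le_norm : (P : Subgroup A) ≤ normalizer (Z : Set A) := by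
  rw [hZe]
  intro x hx
  rw [Subgroup.mem_normalizer_iff]
  intro y
  constructor
  · rintro ⟨h1, h2⟩
    exact ⟨(P : Subgroup A).mul_mem ((P : Subgroup A).mul_mem hx h1) ((P : Subgroup A).inv_mem hx), hN.conj_mem _ h2 _⟩
  · rintro ⟨h1, h2⟩
    have h3 := (P : Subgroup A).mul_mem ((P : Subgroup A).mul_mem ((P : Subgroup A).inv_mem hx) h1) hx
    have h4 := hN.conj_mem _ h2 x⁻¹
    rw [inv_inv] at h4
    have e : x⁻¹ * (x * y * x⁻¹) * x = y := by group
    rw [e] at h3 h4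
    exact ⟨h3, h4⟩

include hZe in
/-- the elements of `N` act by automorphisms of order prime to `p` -/
theorem exists_pow_kap (g : ↥(normalizer (Z : Set A))) (hg : (g : A) ∈ N) : ∃ c : ℕ, ¬ p ∣ c ∧ kap Z g ^ c = 1 := by
  set T : Subgroup A := normalizer (Z : Set A) ⊓ N with hT
  have hZN : Z ≤ N := hZe ▸ inf_le_right
  have hZT : Z ≤ T := le_inf le_normalizer hZN
  refine ⟨Z.relIndex T, fun h => ?_, ?_⟩
  · have h1 := Subgroup.relIndex_mul_relIndex Z T N hZT inf_le_right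
    have h2 : p ∣ Z.relIndex N := h1 ▸ h.mul_right _
    rw [hZe, Subgroup.inf_relIndex_right] at h2
    exact Lib.SylowNormalInf.not_dvd_relIndex P N h2
  · have hn : (Z.subgroupOf T).Normal := by
      refine ⟨fun x hx y => ?_⟩
      rw [Subgroup.mem_subgroupOf] at hx ⊢
      exact (Subgroup.mem_normalizer_iff.1 y.2.1 _).1 hx
    have h1 : (⟨g, g.2, hg⟩ : T) ^ (Z.subgroupOf T).index ∈ Z.subgroupOf T := Subgroup.pow_index_mem _ _
    rw [Subgroup.mem_subgroupOf] at h1
    have h2 : (g : A) ^ Z.relIndex T ∈ Z := h1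
    rw [← map_pow, kap_eq_one_iff]
    intro x hx
    have h3 := (IsCyclic.commGroup (α := Z)).mul_comm ⟨_, h2⟩ ⟨x, hx⟩
    exact congrArg Subtype.val h3

include hZe in
/-- **the map** -/
theorem exists_Phi {j r : ℕ} (hjr : Nat.card (ZMod (Nat.card Z))ˣ = p ^ j * r) :
    ∃ Φ : A →* (ZMod (Nat.card Z))ˣ, (∀ g : ↥(normalizer (Z : Set A)), Φ g = kap Z g ^ r) ∧ N ≤ Φ.ker ∧
      ∀ a : A, Φ a ^ p ^ j = 1 := by
  set f : ↥(normalizer (Z : Set A)) →* A ⧸ N := (QuotientGroup.mk' N).comp (normalizer (Z : Set A)).subtype with hf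
  have hsup : normalizer (Z : Set A) ⊔ N = ⊤ := by
    rw [hZe]
    exact Lib.SylowNormalInf.normalizer_inf_sup_eq_top P N
  have hsurj : Function.Surjective f := by
    intro y
    obtain ⟨a, rfl⟩ := QuotientGroup.mk_surjective y
    have ha : a ∈ normalizer (Z : Set A) ⊔ N := hsup ▸ Subgroup.mem_top a
    have ha' : a ∈ ((normalizer (Z : Set A) : Set A) * (N : Set A)) := by
      rw [← Subgroup.mul_normal]
      exact ha
    obtain ⟨g, hg, n, hn, rfl⟩ := Set.mem_mul.1 ha'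
    refine ⟨⟨g, hg⟩, ?_⟩
    show (g : A ⧸ N) = ((g * n : A) : A ⧸ N)
    rw [QuotientGroup.eq]
    simpa using hn
  set ρ : ↥(normalizer (Z : Set A)) →* (ZMod (Nat.card Z))ˣ := (powMonoidHom r).comp (kap Z) with hρ
  have hker : f.ker ≤ ρ.ker := by
    intro g hg
    rw [MonoidHom.mem_ker] at hg ⊢
    have hgN : (g : A) ∈ N := (QuotientGroup.eq_one_iff _).1 hg
    obtain ⟨c, hc, h1⟩ := exists_pow_kap P N Z hZe g hgN
    have h2 : (kap Z g ^ r) ^ c = 1 := by rw [← pow_mul, mul_comm, pow_mul, h1, one_pow]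
    have h3 : (kap Z g ^ r) ^ p ^ j = 1 := by rw [← pow_mul, mul_comm, ← hjr, pow_card_eq_one']
    have h4 : Nat.Coprime (p ^ j) c := Nat.Coprime.pow_left _ ((Nat.Prime.coprime_iff_not_dvd hp.out).2 hc)
    exact orderOf_eq_one_iff.1 (Nat.eq_one_of_dvd_coprimes h4 (orderOf_dvd_of_pow_eq_one h3) (orderOf_dvd_of_pow_eq_one h2))
  have hval : ∀ g : ↥(normalizer (Z : Set A)), f.liftOfSurjective hsurj ⟨ρ, hker⟩ (f g) = kap Z g ^ r := fun g =>
    f.liftOfRightInverse_comp_apply _ (Function.rightInverse_surjInv hsurj) ⟨ρ, hker⟩ g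
  refine ⟨(f.liftOfSurjective hsurj ⟨ρ, hker⟩).comp (QuotientGroup.mk' N), fun g => hval g, fun x hx => ?_, fun a => ?_⟩
  · rw [MonoidHom.mem_ker, MonoidHom.comp_apply, QuotientGroup.mk'_apply, (QuotientGroup.eq_one_iff x).2 hx, map_one]
  · obtain ⟨g, hg⟩ := hsurj (QuotientGroup.mk' N a)
    rw [MonoidHom.comp_apply, ← hg, hval, ← pow_mul, mul_comm, ← hjr, pow_card_eq_one']

end Phi

end Cfsg.Agent.H985.HT
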