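import Cfsg.Agent.Blocks.Orthogonality
import Cfsg.Agent.Blocks.PPart
import Cfsg.Agent.Blocks.PrincipalSection
import Cfsg.Agent.Blocks.RegularCount
import Cfsg.Agent.Characters.Brauer
import Cfsg.Agent.Characters.CentralCharacter
import Cfsg.Agent.Characters.AverageRoots
import Cfsg.Agent.H145.BR.Count

/-!
# S4933, part (O): moved characters (helper985, after `tools/plans/S4933_O.md`)

`P` an abelian Sylow `p`-subgroup of `D`, `τ` an automorphism of `D` with `τ P ≤ P`, `f` a generalized character of `P`, constant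
on the `D`-classes.  If `f y - f (τ y)` is not divisible by `p`, then `τ` moves a character `ψ` of the principal block of `D`, of
degree prime to `p` and with `(f, ψ_P) ≠ 0`.
-/

set_option autoImplicit false

open Cfsg
open scoped ComplexConjugate

namespace Cfsg.Agent.H985.HT

open Cfsg.Agent.Blocks Cfsg.Agent.Characters Cfsg.Agent.Characters.Core

universe u

variable {D : Type u} [Group D] {p : ℕ}

/-- the `p`-section of `y` -/
def Sec (p : ℕ) (y : D) : Set D := {x | ∃ z, IsPPart p x z ∧ IsConj y z}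

open Classical in
/-- its indicator function -/
noncomputable def si (p : ℕ) (y : D) (x : D) : ℤ := if x ∈ Sec p y then 1 else 0

theorem mem_Sec_conj {y x g : D} (h : x ∈ Sec p y) : g * x * g⁻¹ ∈ Sec p y := by
  obtain ⟨z, h1, h2⟩ := h
  refine ⟨g * z * g⁻¹, PPart.isPPart_conj h1 g, h2.trans ?_⟩
  exact isConj_iff.2 ⟨g, rfl⟩

theorem si_conj (y x g : D) : si p y (g * x * g⁻¹) = si p y x := by
  have h : g * x * g⁻¹ ∈ Sec p y ↔ x ∈ Sec p y := by
    refine ⟨fun h => ?_, mem_Sec_conj⟩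
    have h1 := mem_Sec_conj (g := g⁻¹) h
    rwa [show g⁻¹ * (g * x * g⁻¹) * g⁻¹⁻¹ = x by group] at h1
  unfold si
  by_cases hx : x ∈ Sec p y
  · rw [if_pos hx, if_pos (h.2 hx)]
  · rw [if_neg hx, if_neg fun h1 => hx (h.1 h1)]

theorem isPPart_map_equiv {x z : D} (τ : D ≃* D) (h : IsPPart p x z) : IsPPart p (τ x) (τ z) := by
  obtain ⟨y, h1, h2, ⟨k, h3⟩, h4⟩ := h
  refine ⟨τ y, by rw [← map_mul, h1], h2.map τ, ⟨k, ?_⟩, ?_⟩
  · rw [← h3]
    exact MulEquiv.orderOf_eq τ z
  · rwa [MulEquiv.orderOf_eq τ y]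

theorem mem_Sec_map {y x : D} (τ : D ≃* D) : τ x ∈ Sec p (τ y) ↔ x ∈ Sec p y := by
  constructor
  · rintro ⟨z, h1, h2⟩
    refine ⟨τ.symm z, ?_, ?_⟩
    · have := isPPart_map_equiv τ.symm h1
      rwa [MulEquiv.symm_apply_apply] at this
    · have := τ.symm.toMonoidHom.map_isConj h2
      simpa using this
  · rintro ⟨z, h1, h2⟩
    refine ⟨τ z, isPPart_map_equiv τ h1, ?_⟩
    exact τ.toMonoidHom.map_isConj h2

theorem si_map (τ : D ≃* D) (y x : D) : si p (τ y) (τ x) = si p y x := by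
  unfold si
  by_cases hx : x ∈ Sec p y
  · rw [if_pos hx, if_pos ((mem_Sec_map τ).2 hx)]
  · rw [if_neg hx, if_neg fun h1 => hx ((mem_Sec_map τ).1 h1)]

variable [Finite D]

theorem mem_Sec_of_pElement [hp : Fact p.Prime] {y x : D} (hx : ∃ k : ℕ, orderOf x = p ^ k) : x ∈ Sec p y ↔ IsConj y x := by
  have h0 : IsPPart p x x := ⟨1, mul_one x, Commute.one_right x, hx, by
    rw [orderOf_one]
    exact fun h => hp.out.one_lt.ne' (Nat.dvd_one.1 h)⟩
  constructor
  · rintro ⟨z, h1, h2⟩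
    rwa [PPart.isPPart_unique h0 h1]
  · intro h
    exact ⟨x, h0, h⟩

omit [Finite D] in
/-- the sum over a section is `χ 1` times an algebraic integer -/
theorem exists_sum_eq [Fintype D] (χ : IrrCharacter D) (y : D) :
    ∃ w : ℂ, IsIntegral ℤ w ∧ ∑ x, (si p y x : ℂ) * (χ : D → ℂ) x = (χ : D → ℂ) 1 * w := by
  obtain ⟨n, ρ, hρ, hχ⟩ := χ.2
  have h1 := CentralCharacter.isIntegral_sum_int ρ (si p y) (fun x g => si_conj y x g)
  refine ⟨_, h1, ?_⟩
  have h2 : (χ : D → ℂ) 1 ≠ 0 := isIrr_apply_one_ne_zero χ.2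
  have h3 : (χ : D → ℂ) 1 = (Module.finrank ℂ (Fin n → ℂ) : ℂ) := by
    rw [← hχ]
    exact ρ.char_one
  rw [h3] at h2 ⊢
  rw [mul_div_cancel₀ _ h2, ← hχ]

/-- outside the principal block the sum over a section is zero -/
theorem sum_eq_zero [hp : Fact p.Prime] [Fintype D] {M : Ideal AlgInt} (hM : IsPModular p M) {χ : IrrCharacter D}
    (hχ : χ ∉ principalBlock M D) (y : D) : ∑ x, (si p y x : ℂ) * (χ : D → ℂ) x = 0 := by
  classical
  have hMp : M.IsPrime := hM.2.1.isPrime
  have hB : IsPBlock M (principalBlock M D) := PrincipalSection.isPBlock_principalBlock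
  have h1 := Orthogonality.orthogonal_on_section hM (principalBlock M D)
    (fun g => S0913.result p M hM _ hB g) ⟨fun _ => 1, Basic.isIrrCharacter_one⟩ χ
    PrincipalSection.one_mem_principalBlock hχ y
  rw [finsum_mem_eq_finite_toFinset_sum _ (Set.toFinite _)] at h1
  have h2 := congrArg conj h1
  rw [map_sum, map_zero] at h2
  rw [← h2]
  have h3 : ∀ x, (si p y x : ℂ) * (χ : D → ℂ) x = if x ∈ Sec p y then (χ : D → ℂ) x else 0 := by
    intro x
    unfold si
    split_ifs <;> simp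
  rw [Finset.sum_congr rfl fun x _ => h3 x, ← Finset.sum_filter]
  refine Finset.sum_congr ?_ fun x _ => ?_
  · ext x
    simp [Sec]
  · simp

/-- the number of elements of `P` conjugate to `y` -/
noncomputable def nn (P : Sylow p D) (y : D) : ℕ := Nat.card {x : ↥(P : Subgroup D) // IsConj y (x : D)}

/-- `P` abelian: that number is prime to `p` -/
theorem not_dvd_nn [hp : Fact p.Prime] (P : Sylow p D) (hab : ∀ x ∈ (P : Subgroup D), ∀ y ∈ (P : Subgroup D), x * y = y * x)
    (y : ↥(P : Subgroup D)) : ¬ p ∣ nn P (y : D) := by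
  classical
  have := Fintype.ofFinite D
  -- `P` acts on the class of `y` by conjugation
  let C : Type u := {x : D // IsConj (y : D) x}
  let act : MulAction ↥(P : Subgroup D) C :=
    { smul := fun g x => ⟨(g : D) * x.1 * (g : D)⁻¹, x.2.trans (isConj_iff.2 ⟨(g : D), rfl⟩)⟩
      one_smul := fun x => by
        apply Subtype.ext
        show ((1 : ↥(P : Subgroup D)) : D) * x.1 * ((1 : ↥(P : Subgroup D)) : D)⁻¹ = x.1
        rw [Subgroup.coe_one, one_mul, inv_one, mul_one]
      mul_smul := fun g h x => by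
        apply Subtype.ext
        show ((g * h : ↥(P : Subgroup D)) : D) * x.1 * ((g * h : ↥(P : Subgroup D)) : D)⁻¹ =
          (g : D) * ((h : D) * x.1 * (h : D)⁻¹) * (g : D)⁻¹
        rw [Subgroup.coe_mul]
        group }
  have hsmul : ∀ (g : ↥(P : Subgroup D)) (x : C), (g • x).1 = (g : D) * x.1 * (g : D)⁻¹ := fun g x => rfl
  have h1 := P.isPGroup'.card_modEq_card_fixedPoints C
  have h2 : Nat.card (MulAction.fixedPoints ↥(P : Subgroup D) C) = nn P (y : D) := by
    refine Nat.card_congr ⟨fun x => ⟨⟨x.1.1, ?_⟩, x.1.2⟩, fun x => ⟨⟨x.1.1, x.2⟩, ?_⟩, fun x => ?_, fun x => ?_⟩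
    · -- a `p`-element centralizing the Sylow subgroup `P`
      have h3 : ∀ g ∈ (P : Subgroup D), g * x.1.1 = x.1.1 * g := by
        intro g hg
        have h4 := congrArg Subtype.val (x.2 ⟨g, hg⟩)
        rw [hsmul] at h4
        calc g * x.1.1 = g * x.1.1 * g⁻¹ * g := by group
          _ = x.1.1 * g := by rw [h4]
      refine RegularCount.mem_sylow_of_mem_centralizer P ?_ ?_
      · rw [Subgroup.mem_centralizer_iff]
        exact h3
      · obtain ⟨k, hk⟩ := (IsPGroup.iff_orderOf.1 P.isPGroup') y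
        obtain ⟨c, hc⟩ := isConj_iff.1 x.1.2
        refine ⟨k, ?_⟩
        rw [← hc, ← hk, ← Subgroup.orderOf_coe y]
        exact MulEquiv.orderOf_eq (MulAut.conj c) (y : D)
    · intro g
      apply Subtype.ext
      rw [hsmul]
      have h4 := hab g g.2 x.1 x.1.2
      show (g : D) * (x.1 : D) * (g : D)⁻¹ = x.1
      rw [h4, mul_inv_cancel_right]
    · rfl
    · rfl
  have h3 : Nat.card C = (Subgroup.centralizer ({(y : D)} : Set D)).index :=
    (CentralCharacter.index_centralizer_eq_card (y : D)).symm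
  intro h4
  rw [← h2] at h4
  have h5 : p ∣ Nat.card C := (h1.dvd_iff (dvd_refl p)).2 h4
  rw [h3] at h5
  have h6 : (P : Subgroup D) ≤ Subgroup.centralizer ({(y : D)} : Set D) := by
    intro g hg
    rw [Subgroup.mem_centralizer_singleton_iff]
    exact hab g hg y y.2
  exact P.not_dvd_index (h5.trans (Subgroup.index_dvd_of_le h6))

/-- the sum of the induced function over a section -/
theorem sum_ind [hp : Fact p.Prime] [Fintype D] (P : Sylow p D) (f : ↥(P : Subgroup D) → ℂ)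
    (hinv : ∀ x y : ↥(P : Subgroup D), IsConj (x : D) (y : D) → f x = f y) (y : ↥(P : Subgroup D)) :
    ∑ x, (si p (y : D) x : ℂ) * indFun (P : Subgroup D) f x =
      (((P : Subgroup D).index * nn P (y : D) : ℕ) : ℂ) * f y := by
  classical
  have := Fintype.ofFinite ↥(P : Subgroup D)
  have hcl : IsClassFunction D (fun x => (si p (y : D) x : ℂ)) := fun g x => by
    show ((si p (y : D) _ : ℤ) : ℂ) = _
    rw [si_conj]
  have h1 := Brauer.classInner_indFun (P : Subgroup D) inferInstance f _ hcl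
  rw [classInner_def, classInner_def] at h1
  have h2 : ∑ g : D, indFun (P : Subgroup D) f g * conj ((si p (y : D) g : ℤ) : ℂ) =
      ∑ x, (si p (y : D) x : ℂ) * indFun (P : Subgroup D) f x :=
    Finset.sum_congr rfl fun x _ => by rw [map_intCast, mul_comm]
  have h3 : ∑ h : ↥(P : Subgroup D), f h * conj ((si p (y : D) (h : D) : ℤ) : ℂ) = (nn P (y : D) : ℂ) * f y := by
    have h4 : ∀ h : ↥(P : Subgroup D), f h * conj ((si p (y : D) (h : D) : ℤ) : ℂ) =
        if IsConj (y : D) (h : D) then f y else 0 := by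
      intro h
      rw [map_intCast]
      have hpe : ∃ k : ℕ, orderOf (h : D) = p ^ k := by
        obtain ⟨k, hk⟩ := (IsPGroup.iff_orderOf.1 P.isPGroup') h
        exact ⟨k, by rw [Subgroup.orderOf_coe, hk]⟩
      by_cases hc : IsConj (y : D) (h : D)
      · rw [if_pos hc, ← hinv y h hc]
        unfold si
        rw [if_pos ((mem_Sec_of_pElement hpe).2 hc), Int.cast_one, mul_one]
      · rw [if_neg hc]
        unfold si
        rw [if_neg fun h5 => hc ((mem_Sec_of_pElement hpe).1 h5), Int.cast_zero, mul_zero]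
    rw [Finset.sum_congr rfl fun h _ => h4 h, ← Finset.sum_filter, Finset.sum_const, nsmul_eq_mul]
    congr 1
    rw [nn, Nat.card_eq_fintype_card, Fintype.card_subtype]
  rw [h2, h3] at h1
  have h4 : (Nat.card D : ℂ) ≠ 0 := Nat.cast_ne_zero.2 Nat.card_pos.ne'
  have h5 : (Nat.card ↥(P : Subgroup D) : ℂ) ≠ 0 := Nat.cast_ne_zero.2 Nat.card_pos.ne'
  have h6 : (Nat.card D : ℂ) = (Nat.card ↥(P : Subgroup D) : ℂ) * ((P : Subgroup D).index : ℂ) := by
    rw [← Subgroup.card_mul_index (P : Subgroup D)]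
    push_cast
    ring
  rw [inv_mul_eq_iff_eq_mul₀ h4] at h1
  rw [h1, h6]
  push_cast
  field_simp

theorem nn_map (P : Sylow p D) (τ : D ≃* D) (hτ : ∀ x ∈ (P : Subgroup D), τ x ∈ (P : Subgroup D))
    (y : D) : nn P (τ y) = nn P y := by
  classical
  -- `τ` permutes `P`
  have hsurj : ∀ x ∈ (P : Subgroup D), ∃ z ∈ (P : Subgroup D), τ z = x := by
    intro x hx
    have h1 : ((P : Subgroup D).map τ.toMonoidHom) = (P : Subgroup D) := by
      refine Subgroup.eq_of_le_of_card_ge ?_ ?_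
      · rintro _ ⟨z, hz, rfl⟩
        exact hτ z hz
      · rw [Subgroup.card_map_of_injective τ.injective]
    rw [← h1] at hx
    obtain ⟨z, hz, hzx⟩ := hx
    exact ⟨z, hz, hzx⟩
  refine (Nat.card_congr (Equiv.ofBijective
    (fun x : {x : ↥(P : Subgroup D) // IsConj y (x : D)} =>
      (⟨⟨τ x.1, hτ x.1 x.1.2⟩, τ.toMonoidHom.map_isConj x.2⟩ : {x : ↥(P : Subgroup D) // IsConj (τ y) (x : D)}))
    ⟨?_, ?_⟩)).symm
  · intro a b hab
    have h1 := congrArg (fun t => (t.1 : D)) hab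
    exact Subtype.ext (Subtype.ext (τ.injective h1))
  · rintro ⟨⟨x, hx⟩, hxc⟩
    obtain ⟨z, hz, hzx⟩ := hsurj x hx
    refine ⟨⟨⟨z, hz⟩, ?_⟩, ?_⟩
    · have h2 := τ.symm.toMonoidHom.map_isConj hxc
      have h3 : τ.symm x = z := by rw [← hzx, MulEquiv.symm_apply_apply]
      simpa [h3] using h2
    · apply Subtype.ext
      apply Subtype.ext
      exact hzx

theorem isIntegral_gen {P : Subgroup D} {f : ↥P → ℂ} (hf : IsGeneralizedCharacter ↥P f) (y : ↥P) : IsIntegral ℤ (f y) := by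
  obtain ⟨a, b, ⟨n, ρ, rfl⟩, ⟨m, σ, rfl⟩, rfl⟩ := hf
  exact (AverageRoots.isIntegral_character ρ y).sub (AverageRoots.isIntegral_character σ y)

/-- **Theorem A**: a moved character -/
theorem exists_moved [hp : Fact p.Prime] {M : Ideal AlgInt} (hM : IsPModular p M) (P : Sylow p D)
    (hab : ∀ x ∈ (P : Subgroup D), ∀ y ∈ (P : Subgroup D), x * y = y * x) (τ : D ≃* D)
    (hτ : ∀ x ∈ (P : Subgroup D), τ x ∈ (P : Subgroup D)) [Fintype ↥(P : Subgroup D)] (f : ↥(P : Subgroup D) → ℂ)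
    (hf : IsGeneralizedCharacter ↥(P : Subgroup D) f)
    (hinv : ∀ x y : ↥(P : Subgroup D), IsConj (x : D) (y : D) → f x = f y) (y : ↥(P : Subgroup D))
    (hne : ¬ ∃ z : ℂ, IsIntegral ℤ z ∧ f y - f ⟨τ y, hτ y y.2⟩ = (p : ℂ) * z) :
    ∃ ψ : IrrCharacter D, ψ ∈ principalBlock M D ∧ ¬ p ∣ charDegree (ψ : D → ℂ) ∧
      classInner f (fun x : ↥(P : Subgroup D) => (ψ : D → ℂ) x) ≠ 0 ∧
      (fun x => (ψ : D → ℂ) (τ x)) ≠ (ψ : D → ℂ) := by
  classical
  have := Fintype.ofFinite D
  have : Finite (IrrCharacter D) := finite_irr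
  have := Fintype.ofFinite (IrrCharacter D)
  by_contra hcon
  push Not at hcon
  apply hne
  set y' : ↥(P : Subgroup D) := ⟨τ y, hτ y y.2⟩ with hy'
  -- expansion of the induced function
  have hcl : IsClassFunction D (indFun (P : Subgroup D) f) := Brauer.indFun_isClassFunction _ _
  have hc : ∀ ψ : IrrCharacter D, classInner (indFun (P : Subgroup D) f) (ψ : D → ℂ) =
      classInner f (fun x : ↥(P : Subgroup D) => (ψ : D → ℂ) x) := fun ψ =>
    Brauer.classInner_indFun (P : Subgroup D) inferInstance f _ (isIrr_isClassFunction ψ.2)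
  have hexp : ∀ x, indFun (P : Subgroup D) f x = ∑ ψ : IrrCharacter D,
      classInner f (fun x : ↥(P : Subgroup D) => (ψ : D → ℂ) x) * (ψ : D → ℂ) x := by
    intro x
    have h1 := congrFun (classFunction_eq_sum hcl) x
    rw [h1, Finset.sum_apply]
    refine Finset.sum_congr rfl fun ψ _ => ?_
    rw [Pi.smul_apply, smul_eq_mul, hc]
  have hint : ∀ ψ : IrrCharacter D, ∃ n : ℤ, classInner f (fun x : ↥(P : Subgroup D) => (ψ : D → ℂ) x) = n := by
    intro ψ
    obtain ⟨a, b, ha, hb, rfl⟩ := hf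
    have h1 : IsCharacter ↥(P : Subgroup D) (fun x : ↥(P : Subgroup D) => (ψ : D → ℂ) x) :=
      isCharacter_comp (P : Subgroup D).subtype (isIrr_isCharacter ψ.2)
    obtain ⟨n, hn⟩ := classInner_isNat ha h1
    obtain ⟨m, hm⟩ := classInner_isNat hb h1
    refine ⟨(n : ℤ) - m, ?_⟩
    rw [classInner_sub_left, hn, hm]
    push_cast
    ring
  -- the sums over the sections
  set U : IrrCharacter D → D → ℂ := fun ψ z => ∑ x, (si p z x : ℂ) * (ψ : D → ℂ) x with hU
  have hsum : ∀ z : ↥(P : Subgroup D), (((P : Subgroup D).index * nn P (z : D) : ℕ) : ℂ) * f z =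
      ∑ ψ : IrrCharacter D, classInner f (fun x : ↥(P : Subgroup D) => (ψ : D → ℂ) x) * U ψ z := by
    intro z
    rw [← sum_ind P f hinv z]
    simp only [hU, hexp, Finset.mul_sum]
    rw [Finset.sum_comm]
    exact Finset.sum_congr rfl fun ψ _ => Finset.sum_congr rfl fun x _ => by ring
  have hterm : ∀ ψ : IrrCharacter D, ∃ w : ℂ, IsIntegral ℤ w ∧
      classInner f (fun x : ↥(P : Subgroup D) => (ψ : D → ℂ) x) * (U ψ y - U ψ y') = (p : ℂ) * w := by
    intro ψ
    by_cases h0 : classInner f (fun x : ↥(P : Subgroup D) => (ψ : D → ℂ) x) = 0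
    · exact ⟨0, isIntegral_zero, by rw [h0, zero_mul, mul_zero]⟩
    by_cases hB : ψ ∈ principalBlock M D
    · by_cases hd : p ∣ charDegree (ψ : D → ℂ)
      · obtain ⟨n, hn⟩ := hint ψ
        obtain ⟨w, hw, h1⟩ := exists_sum_eq (p := p) ψ (y : D)
        obtain ⟨w', hw', h1'⟩ := exists_sum_eq (p := p) ψ (y' : D)
        obtain ⟨d, hd⟩ := hd
        refine ⟨(n : ℂ) * (d : ℂ) * (w - w'), ?_, ?_⟩
        · exact ((isIntegral_algebraMap (x := n)).mul (isIntegral_algebraMap (x := (d : ℤ)))).mul (hw.sub hw')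
        · rw [hn]
          show (n : ℂ) * ((∑ x, (si p (y : D) x : ℂ) * (ψ : D → ℂ) x) - ∑ x, (si p (y' : D) x : ℂ) * (ψ : D → ℂ) x) = _
          rw [h1, h1', H145.BR.charDegree_cast' ψ, hd]
          push_cast
          ring
      · refine ⟨0, isIntegral_zero, ?_⟩
        have h2 := hcon ψ hB hd h0
        have h3 : U ψ y' = U ψ y := by
          show ∑ x, (si p (y' : D) x : ℂ) * (ψ : D → ℂ) x = ∑ x, (si p (y : D) x : ℂ) * (ψ : D → ℂ) x
          rw [← Equiv.sum_comp τ.toEquiv]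
          refine Finset.sum_congr rfl fun x _ => ?_
          have h4 : (ψ : D → ℂ) (τ x) = (ψ : D → ℂ) x := congrFun h2 x
          show ((si p (τ (y : D)) (τ x) : ℤ) : ℂ) * (ψ : D → ℂ) (τ x) = _
          rw [h4, si_map]
        rw [h3, sub_self, mul_zero, mul_zero]
    · refine ⟨0, isIntegral_zero, ?_⟩
      have h1 : ∀ z : D, U ψ z = 0 := fun z => sum_eq_zero hM hB z
      rw [h1, h1, sub_zero, mul_zero, mul_zero]
  choose w hw1 hw2 using hterm
  have hnn : nn P (y' : D) = nn P (y : D) := nn_map P τ hτ y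
  set N := (P : Subgroup D).index * nn P (y : D) with hN
  have hNp : ¬ p ∣ N := by
    rw [hN, hp.out.dvd_mul]
    rintro (h | h)
    · exact P.not_dvd_index h
    · exact not_dvd_nn P hab y h
  have hkey : (N : ℂ) * (f y - f y') = (p : ℂ) * ∑ ψ, w ψ := by
    have h1 := hsum y
    have h2 := hsum y'
    rw [hnn] at h2
    rw [mul_sub, h1, h2, ← Finset.sum_sub_distrib, Finset.mul_sum]
    refine Finset.sum_congr rfl fun ψ _ => ?_
    rw [← mul_sub, hw2]
  obtain ⟨u, v, huv⟩ : ∃ u v : ℤ, u * N + v * p = 1 := by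
    have h1 : IsCoprime (N : ℤ) (p : ℤ) := Nat.isCoprime_iff_coprime.2 (((Nat.Prime.coprime_iff_not_dvd hp.out).2 hNp).symm)
    obtain ⟨u, v, h⟩ := h1
    exact ⟨u, v, h⟩
  refine ⟨(u : ℂ) * ∑ ψ, w ψ + (v : ℂ) * (f y - f y'), ?_, ?_⟩
  · refine ((isIntegral_algebraMap (x := u)).mul (IsIntegral.sum _ fun ψ _ => hw1 ψ)).add
      ((isIntegral_algebraMap (x := v)).mul ((isIntegral_gen hf _).sub (isIntegral_gen hf _)))
  · have h1 : ((u * N + v * p : ℤ) : ℂ) = 1 := by rw [huv]; norm_num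
    push_cast at h1
    calc f y - f y' = ((u : ℂ) * N + v * p) * (f y - f y') := by rw [h1, one_mul]
      _ = (u : ℂ) * ((N : ℂ) * (f y - f y')) + v * p * (f y - f y') := by ring
      _ = _ := by rw [hkey]; ring

end Cfsg.Agent.H985.HT
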