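import Cfsg.Agent.H985.HT.CycNum
import Cfsg.Agent.H985.HT.Moved
import Cfsg.Agent.CharDeep.LinearChar
import Cfsg.Agent.Characters.Brauer
import Cfsg.Agent.OddOrderCharacters.FeitCoherence
import Mathlib

/-!
# S4933, rows with cyclic Sylow subgroups, the moved character (helper985)

`Q` a cyclic Sylow `p`-subgroup of `D`, `p` odd, `τ` an automorphism of `D` acting on `Q` with order `p`: `τ` moves a character of
the principal block of degree prime to `p`, nontrivial on `Q`.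
-/

set_option autoImplicit false
set_option linter.unusedSectionVars false

open Subgroup Cfsg

namespace Cfsg.Agent.H985.HT

open Cfsg.Agent.Blocks Cfsg.Agent.Characters Cfsg.Agent.Characters.Core

universe u

/-- a faithful linear character of a cyclic group -/
theorem exists_faithful (Q : Type u) [Group Q] [Finite Q] [h : IsCyclic Q] : ∃ l : Q →* ℂˣ, Function.Injective l := by
  have : NeZero (Nat.card Q) := ⟨Nat.card_pos.ne'⟩
  refine ⟨(((ZMod.stdAddChar (N := Nat.card Q)).toMonoidHom).comp (zmodCyclicMulEquiv h).symm.toMonoidHom).toHomUnits, ?_⟩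
  intro a b hab
  have h1 := congrArg (fun z : ℂˣ => (z : ℂ)) hab
  exact (zmodCyclicMulEquiv h).symm.injective (Multiplicative.toAdd.injective (ZMod.injective_stdAddChar h1))

section

variable {Q : Type u} [Group Q] [Finite Q] (l : Q →* ℂˣ)

theorem lpow_card (x : Q) : (l x : ℂ) ^ Nat.card Q = 1 := by
  rw [← Units.val_pow_eq_pow_val, ← map_pow, pow_card_eq_one', map_one, Units.val_one]

theorem lpow_modEq (x : Q) {a b : ℕ} (h : a ≡ b [MOD Nat.card Q]) : (l x : ℂ) ^ a = (l x : ℂ) ^ b := by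
  rw [pow_eq_pow_mod a (lpow_card l x), pow_eq_pow_mod b (lpow_card l x), h]

open scoped Classical in
/-- the sum of the conjugates -/
noncomputable def fl (r : ℕ) [NeZero (Nat.card Q)] (x : Q) : ℂ :=
  ∑ w ∈ (Finset.univ : Finset (ZMod (Nat.card Q))ˣ).filter (fun w => w ^ r = 1), (l x : ℂ) ^ (w : ZMod (Nat.card Q)).val

theorem fl_gen (r : ℕ) [NeZero (Nat.card Q)] : IsGeneralizedCharacter Q (fl l r) := by
  classical
  have h := Cfsg.Agent.OddOrderCharacters.FeitCoherence.isGen_sum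
    ((Finset.univ : Finset (ZMod (Nat.card Q))ˣ).filter (fun w => w ^ r = 1))
    (f := fun w (x : Q) => (l x : ℂ) ^ (w : ZMod (Nat.card Q)).val) (fun w _ => by
      have h1 := CharDeep.LinearChar.isCharacter_of_hom (l ^ (w : ZMod (Nat.card Q)).val)
      have h2 : (fun g : Q => (((l ^ (w : ZMod (Nat.card Q)).val) g : ℂˣ) : ℂ)) =
          fun x : Q => (l x : ℂ) ^ (w : ZMod (Nat.card Q)).val := by
        funext g
        rw [MonoidHom.pow_apply, Units.val_pow_eq_pow_val]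
      rw [h2] at h1
      exact Brauer.isGeneralizedCharacter_of_isCharacter h1)
  convert h using 1
  funext x
  rw [Finset.sum_apply]
  rfl

theorem fl_pow {r : ℕ} [NeZero (Nat.card Q)] (x : Q) {v : (ZMod (Nat.card Q))ˣ} (hv : v ^ r = 1) :
    fl l r (x ^ (v : ZMod (Nat.card Q)).val) = fl l r x := by
  classical
  unfold fl
  refine Finset.sum_bij (fun w _ => v * w) ?_ ?_ ?_ ?_
  · intro w hw
    rw [Finset.mem_filter] at hw ⊢
    exact ⟨Finset.mem_univ _, by rw [mul_pow, hv, hw.2, one_mul]⟩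
  · intro a _ b _ hab
    exact mul_left_cancel hab
  · intro b hb
    rw [Finset.mem_filter] at hb
    refine ⟨v⁻¹ * b, ?_, by rw [mul_inv_cancel_left]⟩
    rw [Finset.mem_filter]
    exact ⟨Finset.mem_univ _, by rw [mul_pow, inv_pow, hv, hb.2, inv_one, one_mul]⟩
  · intro w _
    rw [map_pow, Units.val_pow_eq_pow_val, ← pow_mul]
    refine lpow_modEq l x ?_
    rw [← ZMod.natCast_eq_natCast_iff, Nat.cast_mul, ZMod.natCast_zmod_val, ZMod.natCast_zmod_val, ZMod.natCast_zmod_val,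
      Units.val_mul]

theorem fl_sum (hl : Function.Injective l) {r : ℕ} [NeZero (Nat.card Q)] [Fintype Q] (h1 : 1 < Nat.card Q) :
    ∑ x : Q, fl l r x = 0 := by
  classical
  unfold fl
  rw [Finset.sum_comm]
  refine Finset.sum_eq_zero fun w _ => ?_
  have h2 := sum_hom_units_eq_zero ((Units.coeHom ℂ).comp (l ^ (w : ZMod (Nat.card Q)).val)) (fun h => ?_)
  · refine Eq.trans (Finset.sum_congr rfl fun x _ => ?_) h2
    show (l x : ℂ) ^ (w : ZMod (Nat.card Q)).val = (((l ^ (w : ZMod (Nat.card Q)).val) x : ℂˣ) : ℂ)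
    rw [MonoidHom.pow_apply, Units.val_pow_eq_pow_val]
  · have h3 : ∀ x : Q, x ^ (w : ZMod (Nat.card Q)).val = 1 := by
      intro x
      have h4 := DFunLike.congr_fun h x
      have h5 : (((l ^ (w : ZMod (Nat.card Q)).val) x : ℂˣ) : ℂ) = 1 := h4
      rw [MonoidHom.pow_apply, ← map_pow] at h5
      exact hl (by rw [map_one]; exact Units.ext h5)
    have : Nontrivial Q := Finite.one_lt_card_iff_nontrivial.1 h1
    obtain ⟨x, hx⟩ := exists_ne (1 : Q)
    have h6 := orderOf_dvd_of_pow_eq_one (h3 x)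
    have h7 : orderOf x ∣ Nat.card Q := orderOf_dvd_natCard x
    have h8 : Nat.Coprime (w : ZMod (Nat.card Q)).val (Nat.card Q) := ZMod.val_coe_unit_coprime w
    exact hx (orderOf_eq_one_iff.1 (Nat.eq_one_of_dvd_coprimes h8 h6 h7))

end

/-- **the moved character** -/
theorem exists_psi {p : ℕ} [hp : Fact p.Prime] (hp2 : p ≠ 2) {D : Type u} [Group D] [Finite D] {M : Ideal AlgInt}
    (hM : IsPModular p M) (Q : Sylow p D) [hQ : IsCyclic (Q : Subgroup D)] {r : ℕ} (hr : ¬ p ∣ r)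
    (hact : ∀ g ∈ normalizer ((Q : Subgroup D) : Set D), ∃ w : (ZMod (Nat.card (Q : Subgroup D)))ˣ, w ^ r = 1 ∧
      ∀ x ∈ (Q : Subgroup D), g * x * g⁻¹ = x ^ (w : ZMod (Nat.card (Q : Subgroup D))).val)
    (τ : D ≃* D) {k : (ZMod (Nat.card (Q : Subgroup D)))ˣ} (hk : k ^ p = 1) (hk1 : k ≠ 1)
    (hτ : ∀ x ∈ (Q : Subgroup D), τ x = x ^ (k : ZMod (Nat.card (Q : Subgroup D))).val) :
    ∃ ψ : IrrCharacter D, ψ ∈ principalBlock M D ∧ ¬ p ∣ charDegree (ψ : D → ℂ) ∧
      (∃ x ∈ (Q : Subgroup D), (ψ : D → ℂ) x ≠ (ψ : D → ℂ) 1) ∧ (fun x => (ψ : D → ℂ) (τ x)) ≠ (ψ : D → ℂ) := by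
  classical
  have hne : NeZero (Nat.card (Q : Subgroup D)) := ⟨Nat.card_pos.ne'⟩
  have : Fintype ↥(Q : Subgroup D) := Fintype.ofFinite _
  obtain ⟨m, hm⟩ := IsPGroup.iff_card.1 Q.isPGroup'
  have hcard : 1 < Nat.card (Q : Subgroup D) := by
    by_contra h
    apply hk1
    have h1 : Nat.card (Q : Subgroup D) = 1 := by
      have := Nat.card_pos (α := (Q : Subgroup D))
      omega
    ext
    have : Subsingleton (ZMod (Nat.card (Q : Subgroup D))) := by
      rw [h1]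
      infer_instance
    exact Subsingleton.elim _ _
  obtain ⟨l, hl⟩ := exists_faithful ↥(Q : Subgroup D)
  have hcomm : ∀ x y : ↥(Q : Subgroup D), x * y = y * x := (IsCyclic.commGroup (α := ↥(Q : Subgroup D))).mul_comm
  have hab : ∀ x ∈ (Q : Subgroup D), ∀ y ∈ (Q : Subgroup D), x * y = y * x := fun x hx y hy =>
    congrArg Subtype.val (hcomm ⟨x, hx⟩ ⟨y, hy⟩)
  have hτ' : ∀ x ∈ (Q : Subgroup D), τ x ∈ (Q : Subgroup D) := fun x hx => by
    rw [hτ x hx]
    exact pow_mem hx _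
  have hinv : ∀ x y : ↥(Q : Subgroup D), IsConj (x : D) (y : D) → fl l r x = fl l r y := by
    intro x y h
    obtain ⟨c, hc⟩ := isConj_iff.1 h
    have : IsMulCommutative ↥(Q : Subgroup D) := ⟨⟨hcomm⟩⟩
    obtain ⟨n, hn, h1⟩ := Sylow.conj_eq_normalizer_conj_of_mem Q (x : D) c⁻¹ x.2 (by rw [inv_inv, hc]; exact y.2)
    rw [inv_inv, hc] at h1
    obtain ⟨w, hw, h2⟩ := hact n⁻¹ (inv_mem hn)
    have h3 := h2 x x.2
    rw [inv_inv, ← h1] at h3
    have h4 : y = x ^ (w : ZMod (Nat.card (Q : Subgroup D))).val := Subtype.ext h3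
    rw [h4, fl_pow l x hw]
  obtain ⟨y, hy⟩ := IsCyclic.exists_ofOrder_eq_natCard (α := ↥(Q : Subgroup D))
  have hζ : IsPrimitiveRoot ((l y : ℂˣ) : ℂ) (Nat.card (Q : Subgroup D)) := by
    rw [IsPrimitiveRoot.coe_units_iff, ← hy, ← orderOf_injective l hl y]
    exact IsPrimitiveRoot.orderOf _
  obtain ⟨ψ, h1, h2, h3, h4⟩ := exists_moved hM Q hab τ hτ' (fl l r) (fl_gen l r) hinv y (by
    rintro ⟨z, hz, hz2⟩
    refine test hp2 hm hk hk1 hr hζ hz ?_
    rw [← hz2]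
    congr 1
    have h5 : (⟨τ y, hτ' y y.2⟩ : ↥(Q : Subgroup D)) = y ^ (k : ZMod (Nat.card (Q : Subgroup D))).val := Subtype.ext (hτ y y.2)
    rw [h5]
    unfold fl
    refine Finset.sum_congr rfl fun w _ => ?_
    rw [map_pow, Units.val_pow_eq_pow_val, ← pow_mul])
  refine ⟨ψ, h1, h2, ?_, h4⟩
  by_contra hcon
  push Not at hcon
  apply h3
  rw [classInner_def]
  have h5 : ∀ x : ↥(Q : Subgroup D), fl l r x * (starRingEnd ℂ) ((ψ : D → ℂ) x) =
      fl l r x * (starRingEnd ℂ) ((ψ : D → ℂ) 1) := fun x => by rw [hcon x x.2]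
  rw [Finset.sum_congr rfl fun x _ => h5 x, ← Finset.sum_mul, fl_sum l hl hcard, zero_mul, mul_zero]

/-- the same, for a number `n` -/
theorem exists_psi' {p : ℕ} [hp : Fact p.Prime] (hp2 : p ≠ 2) {D : Type u} [Group D] [Finite D] {M : Ideal AlgInt}
    (hM : IsPModular p M) (Q : Sylow p D) [hQ : IsCyclic (Q : Subgroup D)] {n : ℕ} (hn : Nat.card (Q : Subgroup D) = n)
    {r : ℕ} (hr : ¬ p ∣ r)
    (hact : ∀ g ∈ normalizer ((Q : Subgroup D) : Set D), ∃ w : (ZMod n)ˣ, w ^ r = 1 ∧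
      ∀ x ∈ (Q : Subgroup D), g * x * g⁻¹ = x ^ (w : ZMod n).val)
    (τ : D ≃* D) {k : (ZMod n)ˣ} (hk : k ^ p = 1) (hk1 : k ≠ 1)
    (hτ : ∀ x ∈ (Q : Subgroup D), τ x = x ^ (k : ZMod n).val) :
    ∃ ψ : IrrCharacter D, ψ ∈ principalBlock M D ∧ ¬ p ∣ charDegree (ψ : D → ℂ) ∧
      (∃ x ∈ (Q : Subgroup D), (ψ : D → ℂ) x ≠ (ψ : D → ℂ) 1) ∧ (fun x => (ψ : D → ℂ) (τ x)) ≠ (ψ : D → ℂ) := by
  subst hn
  exact exists_psi hp2 hM Q hr hact τ hk hk1 hτ

end Cfsg.Agent.H985.HT
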